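/- Bit-vector linear algebra over `F₂`, checkable by the kernel: vectors are numbers,
matrices are lists of columns.  Span, rank, invariance, spinning and Norton's test. -/
import Cfsg.Agent.Base

set_option autoImplicit false
set_option linter.unusedSectionVars false
set_option linter.unusedSimpArgs false

namespace H22.BK
open Module Submodule

abbrev F := ZMod 2

theorem F_add_self (a : F) : a + a = 0 := by revert a; decide
theorem v_add_self {I : Type} (v : I → F) : v + v = 0 := funext fun i => F_add_self (v i)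

def bt (b : Bool) : F := if b then 1 else 0
@[simp] theorem bt_true : bt true = 1 := rfl
@[simp] theorem bt_false : bt false = 0 := rfl
theorem bt_xor (a b : Bool) : bt (a ^^ b) = bt a + bt b := by revert a b; decide
theorem bt_and (a b : Bool) : bt (a && b) = bt a * bt b := by revert a b; decide
theorem bt_inj {a b : Bool} (h : bt a = bt b) : a = b := by revert a b; decide

/-- `a ^^^ b` if bit `i` of `v` is set, else `a` -/
def cx (v i b a : ℕ) : ℕ := Nat.xor (Nat.mul (Nat.land (Nat.shiftRight v i) 1) b) a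

theorem cx_eq (v i b a : ℕ) : cx v i b a = (if v.testBit i then b else 0) ^^^ a := by
  show ((v >>> i) &&& 1) * b ^^^ a = _
  rw [Nat.testBit, Nat.and_comm 1, Nat.and_one_is_mod]
  rcases Nat.mod_two_eq_zero_or_one (v >>> i) with h | h <;> simp [h]

/-- the matrix with the list of columns applied to a vector, from column `i` on -/
noncomputable def appF (M : List ℕ) (v : ℕ) : ℕ → ℕ :=
  List.rec (motive := fun _ => ℕ → ℕ) (fun _ => 0) (fun c _ r i => cx v i c (r (Nat.succ i))) M
noncomputable def app (M : List ℕ) (v : ℕ) : ℕ := appF M v 0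

/-- sparse linear map: pairs (source bit, column) -/
noncomputable def spa (T : List (ℕ × ℕ)) (v : ℕ) : ℕ :=
  List.rec (motive := fun _ => ℕ) 0 (fun p _ r => cx v p.1 p.2 r) T

/-- force a number -/
noncomputable def frc {α : Type} (x : ℕ) (f : ℕ → α) : α :=
  Nat.rec (motive := fun _ => α) (f 0) (fun k _ => f (Nat.succ k)) x
@[simp] theorem frc_eq {α : Type} (x : ℕ) (f : ℕ → α) : frc x f = f x := by cases x <;> rfl

/-- reduce by the vectors of a list (pivot = top bit) -/
noncomputable def red (B : List ℕ) : ℕ → ℕ :=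
  List.rec (motive := fun _ => ℕ → ℕ) (fun v => v)
    (fun b _ r v => frc (cx v (Nat.log2 b) b v) r) B

theorem red_nil (v : ℕ) : red [] v = v := rfl
theorem red_cons (b : ℕ) (B : List ℕ) (v : ℕ) : red (b :: B) v = red B (cx v b.log2 b v) := frc_eq _ _

/-- insert a vector in an echelon list (at the end) -/
noncomputable def ins (B : List ℕ) (v : ℕ) : List ℕ :=
  frc (red B v) fun w => cond (Nat.beq w 0) B (B ++ [w])
/-- echelonise `l` on top of `B` -/
noncomputable def echF (l : List ℕ) : List ℕ → List ℕ :=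
  List.rec (motive := fun _ => List ℕ → List ℕ) (fun B => B) (fun v _ r B => r (ins B v)) l
noncomputable def ech (l : List ℕ) : List ℕ := echF l []

/-- triangular lists are independent -/
noncomputable def tri (n : ℕ) (B : List ℕ) : Bool :=
  List.rec (motive := fun _ => Bool) true
    (fun b t r => (b.testBit b.log2 && (Nat.blt b.log2 n && t.all fun c => !c.testBit b.log2)) && r) B

/-- lower bound for the rank: the length of the echelon form if it is triangular -/
noncomputable def rk (n : ℕ) (l : List ℕ) : ℕ := cond (tri n (ech l)) (ech l).length 0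

/-- spinning: `B` the echelon list so far, `q` the queue -/
noncomputable def spinF (φ : List (ℕ → ℕ)) (k : ℕ) : List ℕ → List ℕ → List ℕ :=
  Nat.rec (motive := fun _ => List ℕ → List ℕ → List ℕ) (fun B _ => B)
    (fun _ r B q => List.rec (motive := fun _ => List ℕ) B
      (fun v t _ => frc (red B v) fun w =>
        cond (Nat.beq w 0) (r B t) (r (B ++ [w]) (t ++ φ.map fun f => f w))) q) k
/-- the span of `l` spun under the maps `φ` (fuel `k`) -/
noncomputable def spin (φ : List (ℕ → ℕ)) (k : ℕ) (l : List ℕ) : List ℕ := spinF φ k [] l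

/-- the standard basis -/
def bas (n : ℕ) : List ℕ := (List.range n).map fun j => 2 ^ j
/-- the matrix of a map -/
def mat (n : ℕ) (φ : ℕ → ℕ) : List ℕ := (List.range n).map fun j => φ (2 ^ j)

/-- parity of the first `n` bits -/
noncomputable def par (n v : ℕ) : Bool :=
  Nat.rec (motive := fun _ => Bool) false (fun k r => xor (v.testBit k) r) n
noncomputable def dt (n a b : ℕ) : Bool := frc (Nat.land a b) (par n)

/-- row `i` of a list of columns -/
noncomputable def rowF (M : List ℕ) (i : ℕ) : ℕ :=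
  List.rec (motive := fun _ => ℕ) 0
    (fun c _ r => Nat.add (Nat.land (Nat.shiftRight c i) 1) (Nat.mul 2 r)) M
/-- the transpose -/
noncomputable def tr (n : ℕ) (M : List ℕ) : List ℕ := (List.range n).map (rowF M)

theorem rowF_bit (M : List ℕ) (i j : ℕ) : (rowF M i).testBit j = (M.getD j 0).testBit i := by
  induction M generalizing j with
  | nil => simp [rowF]
  | cons c t ih =>
    have e : rowF (c :: t) i = ((c >>> i) &&& 1) + 2 * rowF t i := rfl
    rw [e, Nat.and_one_is_mod]
    cases j with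
    | zero =>
      simp only [List.getD_cons_zero, Nat.testBit_zero]
      rw [Nat.testBit, Nat.and_comm 1, Nat.and_one_is_mod]
      rcases Nat.mod_two_eq_zero_or_one (c >>> i) with h | h <;> simp [h, Nat.add_mod]
    | succ j =>
      rw [Nat.testBit_succ, List.getD_cons_succ, ← ih]
      congr 1; omega

section
variable {I : Type} [Fintype I] [DecidableEq I] {n : ℕ} (e : I ≃ Fin n)

def vec (m : ℕ) : I → F := fun i => bt (m.testBit (e i))

theorem vec_xor (a b : ℕ) : vec e (a ^^^ b) = vec e a + vec e b :=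
  funext fun i => by simp [vec, Nat.testBit_xor, bt_xor]
@[simp] theorem vec_zero : vec e 0 = 0 := funext fun i => by simp [vec]
theorem vec_pow (i : I) : vec e (2 ^ (e i : ℕ)) = Pi.single i 1 := funext fun j => by
  by_cases h : j = i
  · subst h; simp [vec]
  · have : (e i : ℕ) ≠ e j := fun q => h (e.injective (Fin.ext q)).symm
    simp [vec, Nat.testBit_two_pow_of_ne this, h]
theorem vec_cx (v i b a : ℕ) : vec e (cx v i b a) = bt (v.testBit i) • vec e b + vec e a := by
  rw [cx_eq, vec_xor]; cases v.testBit i <;> simp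
theorem vec_inj {a b : ℕ} (ha : a < 2 ^ n) (hb : b < 2 ^ n) (h : vec e a = vec e b) : a = b := by
  refine Nat.eq_of_testBit_eq fun k => ?_
  by_cases hk : k < n
  · have := congrFun h (e.symm ⟨k, hk⟩)
    simpa [vec] using bt_inj this
  · have h2 : 2 ^ n ≤ 2 ^ k := Nat.pow_le_pow_right (by omega) (by omega)
    rw [Nat.testBit_lt_two_pow (ha.trans_le h2), Nat.testBit_lt_two_pow (hb.trans_le h2)]
theorem vec_ne {a b k : ℕ} (hk : k < n) (h : a.testBit k ≠ b.testBit k) : vec e a ≠ vec e b := fun q =>
  h (by simpa [vec] using bt_inj (congrFun q (e.symm ⟨k, hk⟩)))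

theorem vec_surj (v : I → F) : ∃ m, vec e m = v := by
  induction v using Pi.single_induction with
  | zero => exact ⟨0, vec_zero e⟩
  | add f g hf hg =>
    obtain ⟨a, rfl⟩ := hf; obtain ⟨b, rfl⟩ := hg; exact ⟨a ^^^ b, vec_xor e a b⟩
  | single i c =>
    have : c = 0 ∨ c = 1 := by revert c; decide
    rcases this with rfl | rfl
    · exact ⟨0, by simp⟩
    · exact ⟨_, vec_pow e i⟩

include e in
theorem finrank_eq : finrank F (I → F) = n := by
  rw [Module.finrank_fintype_fun_eq_card, Fintype.card_congr e, Fintype.card_fin]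

/-- the span of a list -/
def sp (B : List ℕ) : Submodule F (I → F) := span F {v | ∃ b ∈ B, v = vec e b}

theorem mem_sp {B : List ℕ} {b : ℕ} (h : b ∈ B) : vec e b ∈ sp e B := subset_span ⟨b, h, rfl⟩
theorem sp_le {B : List ℕ} {S : Submodule F (I → F)} : sp e B ≤ S ↔ ∀ b ∈ B, vec e b ∈ S := by
  rw [sp, span_le]
  exact ⟨fun h b hb => h ⟨b, hb, rfl⟩, fun h v ⟨b, hb, q⟩ => q ▸ h b hb⟩
theorem sp_nil : sp e [] = ⊥ := le_bot_iff.1 ((sp_le e).2 (by simp))
theorem sp_cons (b : ℕ) (B : List ℕ) : sp e (b :: B) = span F {vec e b} ⊔ sp e B := by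
  rw [sp, sp, ← span_union]; congr 1; ext v; simp [or_and_right, exists_or]
theorem sp_append (A B : List ℕ) : sp e (A ++ B) = sp e A ⊔ sp e B := by
  rw [sp, sp, sp, ← span_union]; congr 1; ext v; simp [or_and_right, exists_or]

theorem red_add (B : List ℕ) (v : ℕ) : vec e (red B v) + vec e v ∈ sp e B := by
  induction B generalizing v with
  | nil => rw [red_nil, v_add_self]; exact zero_mem _
  | cons b t ih =>
    rw [red_cons, sp_cons]
    have h := ih (cx v b.log2 b v)
    rw [vec_cx, ← add_assoc, add_right_comm] at h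
    have h2 : bt (v.testBit b.log2) • vec e b ∈ span F {vec e b} := smul_mem _ _ (subset_span rfl)
    have := add_mem (mem_sup_right (S := span F {vec e b}) h) (mem_sup_left h2)
    rwa [add_assoc, v_add_self, add_zero] at this
theorem red_mem_iff {B : List ℕ} {S : Submodule F (I → F)} (h : sp e B ≤ S) (v : ℕ) :
    vec e (red B v) ∈ S ↔ vec e v ∈ S := by
  have h1 := h (red_add e B v)
  constructor
  · intro h2; have := add_mem h2 h1; rwa [← add_assoc, v_add_self, zero_add] at this
  · intro h2; have := add_mem h1 h2; rwa [add_assoc, v_add_self, add_zero] at this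
/-- membership certificate -/
theorem mem_of_red {B : List ℕ} {v : ℕ} (h : red B v = 0) : vec e v ∈ sp e B :=
  (red_mem_iff e le_rfl v).1 (by rw [h, vec_zero]; exact zero_mem _)

theorem sp_ins (B : List ℕ) (v : ℕ) : sp e (ins B v) = sp e B ⊔ span F {vec e v} := by
  rw [ins, frc_eq]
  cases h : Nat.beq (red B v) 0
  · rw [cond_false, sp_append, sp_cons, sp_nil, sup_bot_eq]
    refine le_antisymm (sup_le le_sup_left ?_) (sup_le le_sup_left ?_) <;>
      rw [span_singleton_le_iff_mem]
    · exact (red_mem_iff e le_sup_left v).2 (mem_sup_right (subset_span rfl))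
    · exact (red_mem_iff e le_sup_left v).1 (mem_sup_right (subset_span rfl))
  · rw [cond_true, eq_comm, sup_eq_left, span_singleton_le_iff_mem]
    exact mem_of_red e (Nat.eq_of_beq_eq_true h)
theorem sp_echF (l B : List ℕ) : sp e (echF l B) = sp e B ⊔ sp e l := by
  induction l generalizing B with
  | nil => rw [sp_nil, sup_bot_eq]; rfl
  | cons v t ih => exact (ih (ins B v)).trans (by rw [sp_ins, sp_cons, sup_assoc])
theorem sp_ech (l : List ℕ) : sp e (ech l) = sp e l := by rw [ech, sp_echF, sp_nil, bot_sup_eq]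

theorem finrank_sp_le (B : List ℕ) : finrank F (sp e B) ≤ B.length := by
  induction B with
  | nil => rw [sp_nil]; simp
  | cons b t ih =>
    rw [sp_cons]
    have h1 := finrank_add_le_finrank_add_finrank (span F {vec e b}) (sp e t)
    have h2 : finrank F (span F {vec e b}) ≤ 1 := by simpa using finrank_span_le_card (R := F) {vec e b}
    rw [List.length_cons]; omega
theorem finrank_sp_le_ech (B : List ℕ) : finrank F (sp e B) ≤ (ech B).length := by
  rw [← sp_ech]; exact finrank_sp_le e _

theorem finrank_sp {B : List ℕ} (h : tri n B = true) : finrank F (sp e B) = B.length := by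
  refine le_antisymm (finrank_sp_le e B) ?_
  induction B with
  | nil => simp
  | cons b t ih =>
    have h' : ((b.testBit b.log2 && (Nat.blt b.log2 n && t.all fun c => !c.testBit b.log2)) &&
      tri n t) = true := h
    simp only [Bool.and_eq_true, Nat.blt_eq, List.all_eq_true, Bool.not_eq_true'] at h'
    obtain ⟨⟨h1, h2, h3⟩, h4⟩ := h'
    have : sp e t < sp e (b :: t) := by
      refine lt_of_le_of_ne ((sp_le e).2 fun c hc => mem_sp e (List.mem_cons_of_mem _ hc)) fun q => ?_
      have k : sp e t ≤ LinearMap.ker (LinearMap.proj (R := F) (φ := fun _ : I => F) (e.symm ⟨_, h2⟩)) :=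
        (sp_le e).2 fun c hc => by simp [vec, h3 c hc]
      have := k (q ▸ mem_sp e List.mem_cons_self)
      simp [vec, h1] at this
    have := finrank_lt_finrank_of_lt this
    have := ih h4
    rw [List.length_cons]; omega

/-- rank certificate -/
theorem rk_le (l : List ℕ) : rk n l ≤ finrank F (sp e l) := by
  rw [rk]
  cases h : tri n (ech l)
  · simp
  · rw [cond_true, ← finrank_sp e h, sp_ech]
theorem rk_le_of {l : List ℕ} {S : Submodule F (I → F)} (h : ∀ b ∈ l, vec e b ∈ S) :
    rk n l ≤ finrank F S := (rk_le e l).trans (finrank_mono ((sp_le e).2 h))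

/-- `φ` computes `f` -/
def Rep (f : (I → F) →ₗ[F] (I → F)) (φ : ℕ → ℕ) : Prop := ∀ m, f (vec e m) = vec e (φ m)

variable {e}
theorem Rep.id : Rep e 1 fun m => m := fun _ => rfl
theorem Rep.zero : Rep e 0 fun _ => 0 := fun _ => by simp
theorem Rep.mul {f g : (I → F) →ₗ[F] (I → F)} {φ ψ : ℕ → ℕ} (h : Rep e f φ) (k : Rep e g ψ) :
    Rep e (f * g) fun m => φ (ψ m) := fun m => by rw [Module.End.mul_apply, k, h]
theorem Rep.add {f g : (I → F) →ₗ[F] (I → F)} {φ ψ : ℕ → ℕ} (h : Rep e f φ) (k : Rep e g ψ) :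
    Rep e (f + g) fun m => φ m ^^^ ψ m := fun m => by rw [LinearMap.add_apply, k, h, vec_xor]
theorem Rep.sub_one {f : (I → F) →ₗ[F] (I → F)} {φ : ℕ → ℕ} (h : Rep e f φ) :
    Rep e (f - 1) fun m => φ m ^^^ m := fun m => by
  rw [LinearMap.sub_apply, h, vec_xor, sub_eq_iff_eq_add, add_assoc]
  simp [v_add_self]
theorem Rep.congr {f : (I → F) →ₗ[F] (I → F)} {φ ψ : ℕ → ℕ} (h : Rep e f φ) (k : ∀ m, φ m = ψ m) :
    Rep e f ψ := fun m => by rw [h, k]

/-- two maps agree when their matrices do -/
theorem Rep.ext {f g : (I → F) →ₗ[F] (I → F)} {φ ψ : ℕ → ℕ} (h : Rep e f φ) (k : Rep e g ψ)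
    (q : mat n φ = mat n ψ) : f = g := by
  refine LinearMap.pi_ext' fun i => LinearMap.ext_ring ?_
  have := List.map_inj_left.1 q (e i) (List.mem_range.2 (e i).2)
  simp only [LinearMap.coe_comp, LinearMap.coe_single, Function.comp_apply]
  rw [← vec_pow e, h, k, this]

theorem Rep.ne {f g : (I → F) →ₗ[F] (I → F)} {φ ψ : ℕ → ℕ} (h : Rep e f φ) (k : Rep e g ψ)
    {m j : ℕ} (hj : j < n) (q : (φ m).testBit j ≠ (ψ m).testBit j) : f ≠ g := fun t =>
  vec_ne e hj q (by rw [← h, ← k, t])

variable (e) in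
/-- the linear map of a sparse table -/
noncomputable def linS (T : List (ℕ × ℕ)) : (I → F) →ₗ[F] (I → F) :=
  (T.map fun p => if h : p.1 < n then (LinearMap.proj (e.symm ⟨p.1, h⟩)).smulRight (vec e p.2) else 0).sum

theorem rep_spa {T : List (ℕ × ℕ)} (h : ∀ p ∈ T, p.1 < n) : Rep e (linS e T) (spa T) := fun m => by
  induction T with
  | nil => simp [linS, spa]
  | cons p t ih =>
    have e1 : spa (p :: t) m = cx m p.1 p.2 (spa t m) := rfl
    have := ih fun q hq => h q (List.mem_cons_of_mem _ hq)
    rw [linS] at this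
    rw [e1, vec_cx, linS, List.map_cons, List.sum_cons, LinearMap.add_apply, this,
      dif_pos (h p List.mem_cons_self)]
    simp [vec]

theorem vec_appF (M : List ℕ) (v i : ℕ) : vec e (appF M v i) =
    ∑ j ∈ Finset.range M.length, bt (v.testBit (i + j)) • vec e (M.getD j 0) := by
  induction M generalizing i with
  | nil => simp [appF]
  | cons c t ih =>
    have e1 : appF (c :: t) v i = cx v i c (appF t v (i + 1)) := rfl
    rw [e1, vec_cx, ih, List.length_cons, Finset.sum_range_succ', add_comm]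
    simp [add_assoc, add_comm 1]

theorem vec_app {M : List ℕ} (h : M.length = n) (v : ℕ) :
    vec e (app M v) = ∑ i, vec e v i • vec e (M.getD (e i) 0) := by
  rw [app, vec_appF, h, Finset.sum_range, ← e.sum_comp]
  simp [vec]

variable (e) in
/-- the linear map of a list of columns -/
noncomputable def lin (M : List ℕ) : (I → F) →ₗ[F] (I → F) :=
  ∑ i, (LinearMap.proj i).smulRight (vec e (M.getD (e i) 0))

theorem rep_app {M : List ℕ} (h : M.length = n) : Rep e (lin e M) (app M) := fun m => by
  rw [vec_app h, lin, LinearMap.sum_apply]; simp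

theorem Rep.basis {f : (I → F) →ₗ[F] (I → F)} {φ : ℕ → ℕ} (h : Rep e f φ) (i : I) :
    f (Pi.single i 1) = vec e ((mat n φ).getD (e i) 0) := by
  rw [← vec_pow e, h]; simp [mat]

theorem Rep.eq_lin {f : (I → F) →ₗ[F] (I → F)} {φ : ℕ → ℕ} (h : Rep e f φ) : f = lin e (mat n φ) := by
  refine LinearMap.pi_ext' fun i => LinearMap.ext_ring ?_
  simp only [LinearMap.coe_comp, LinearMap.coe_single, Function.comp_apply]
  rw [h.basis, lin, LinearMap.sum_apply, Finset.sum_eq_single i] <;> simp +contextual [Pi.single_apply]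

/-- replace a computation by its (literal) matrix -/
theorem Rep.toMat {f : (I → F) →ₗ[F] (I → F)} {φ : ℕ → ℕ} (h : Rep e f φ) {M : List ℕ}
    (q : mat n φ = M) : Rep e f (app M) := by
  rw [h.eq_lin, q]; exact rep_app (by rw [← q]; simp [mat])

theorem Rep.range {f : (I → F) →ₗ[F] (I → F)} {φ : ℕ → ℕ} (h : Rep e f φ) :
    LinearMap.range f = sp e (mat n φ) := by
  refine le_antisymm ?_ ((sp_le e).2 fun b hb => ?_)
  · rintro _ ⟨v, rfl⟩
    rw [h.eq_lin, lin, LinearMap.sum_apply]
    refine sum_mem fun i _ => smul_mem _ _ (mem_sp e ?_)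
    rw [List.getD_eq_getElem _ _ (by simp [mat])]; exact List.getElem_mem _
  · obtain ⟨j, -, rfl⟩ := List.mem_map.1 hb
    exact ⟨_, h _⟩

/-- the kernel is small -/
theorem Rep.ker_le {f : (I → F) →ₗ[F] (I → F)} {φ : ℕ → ℕ} (h : Rep e f φ) (l : List ℕ) :
    finrank F (LinearMap.ker f) + rk n (l.map φ) ≤ n := by
  have h1 := LinearMap.finrank_range_add_finrank_ker f
  have h2 : rk n (l.map φ) ≤ finrank F (LinearMap.range f) := rk_le_of e fun b hb => by
    obtain ⟨m, -, rfl⟩ := List.mem_map.1 hb
    exact ⟨_, h _⟩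
  rw [finrank_eq e] at h1; omega
/-- exact dimension of image and kernel -/
theorem Rep.finrank_range {f : (I → F) →ₗ[F] (I → F)} {φ : ℕ → ℕ} (h : Rep e f φ) {k : ℕ}
    (q : tri n (ech (mat n φ)) = true ∧ (ech (mat n φ)).length = k) :
    finrank F (LinearMap.range f) = k ∧ finrank F (LinearMap.ker f) + k = n := by
  have h1 := LinearMap.finrank_range_add_finrank_ker f
  have h2 : finrank F (LinearMap.range f) = k := by rw [h.range, ← sp_ech, finrank_sp e q.1, q.2]
  rw [finrank_eq e] at h1; omega

/-- invariance certificate -/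
theorem Rep.inv {f : (I → F) →ₗ[F] (I → F)} {φ : ℕ → ℕ} (h : Rep e f φ) {B : List ℕ}
    (q : B.all (fun b => Nat.beq (red B (φ b)) 0) = true) : ∀ v ∈ sp e B, f v ∈ sp e B := by
  have : sp e B ≤ (sp e B).comap f := (sp_le e).2 fun b hb => by
    rw [mem_comap, h]; exact mem_of_red e (Nat.eq_of_beq_eq_true (List.all_eq_true.1 q b hb))
  exact fun v hv => this hv
/-- `f` maps the span of `A` into the span of `B` -/
theorem Rep.maps {f : (I → F) →ₗ[F] (I → F)} {φ : ℕ → ℕ} (h : Rep e f φ) {A B : List ℕ}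
    (q : A.all (fun b => Nat.beq (red B (φ b)) 0) = true) : ∀ v ∈ sp e A, f v ∈ sp e B := by
  have : sp e A ≤ (sp e B).comap f := (sp_le e).2 fun b hb => by
    rw [mem_comap, h]; exact mem_of_red e (Nat.eq_of_beq_eq_true (List.all_eq_true.1 q b hb))
  exact fun v hv => this hv

/-- a subspace closed under the computations -/
def Cl (e : I ≃ Fin n) (φ : List (ℕ → ℕ)) (S : Submodule F (I → F)) : Prop :=
  ∀ f ∈ φ, ∀ m, vec e m ∈ S → vec e (f m) ∈ S

theorem Cl.nil {S : Submodule F (I → F)} : Cl e [] S := by simp [Cl]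
theorem Cl.cons {S : Submodule F (I → F)} {φ : List (ℕ → ℕ)} {f : (I → F) →ₗ[F] (I → F)} {ψ : ℕ → ℕ}
    (h : Rep e f ψ) (k : ∀ v ∈ S, f v ∈ S) (t : Cl e φ S) : Cl e (ψ :: φ) S := fun g hg m hm => by
  rcases List.mem_cons.1 hg with rfl | hg
  · rw [← h]; exact k _ hm
  · exact t g hg m hm

theorem spinF_le {φ : List (ℕ → ℕ)} {S : Submodule F (I → F)} (h : Cl e φ S) (k : ℕ) (B q : List ℕ)
    (hB : sp e B ≤ S) (hq : sp e q ≤ S) : sp e (spinF φ k B q) ≤ S := by
  induction k generalizing B q with
  | zero => exact hB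
  | succ k ih =>
    cases q with
    | nil => exact hB
    | cons v t =>
      have e1 : spinF φ (k + 1) B (v :: t) = frc (red B v) fun w =>
        cond (Nat.beq w 0) (spinF φ k B t) (spinF φ k (B ++ [w]) (t ++ φ.map fun f => f w)) := rfl
      rw [sp_cons, sup_le_iff, span_singleton_le_iff_mem] at hq
      have hw := (red_mem_iff e hB v).2 hq.1
      rw [e1, frc_eq]
      cases Nat.beq (red B v) 0
      · refine ih _ _ ?_ ?_
        · rw [sp_append]; exact sup_le hB ((sp_le e).2 (by simpa using hw))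
        · rw [sp_append]; refine sup_le hq.2 ((sp_le e).2 fun b hb => ?_)
          obtain ⟨f, hf, rfl⟩ := List.mem_map.1 hb
          exact h f hf _ hw
      · exact ih _ _ hB hq.2
theorem spin_le {φ : List (ℕ → ℕ)} {S : Submodule F (I → F)} (h : Cl e φ S) (k : ℕ) {l : List ℕ}
    (hl : ∀ b ∈ l, vec e b ∈ S) : sp e (spin φ k l) ≤ S :=
  spinF_le h k [] l (by rw [sp_nil]; exact bot_le) ((sp_le e).2 hl)
/-- the dimension of a spun space (`tl n B` is the length of a triangular list) -/
noncomputable def tl (n : ℕ) (B : List ℕ) : ℕ := cond (tri n B) B.length 0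
theorem tl_le (B : List ℕ) : tl n B ≤ finrank F (sp e B) := by
  rw [tl]
  cases h : tri n B
  · simp
  · rw [cond_true, finrank_sp e h]
theorem spin_dim {φ : List (ℕ → ℕ)} {S : Submodule F (I → F)} (h : Cl e φ S) (k : ℕ) {l : List ℕ}
    (hl : ∀ b ∈ l, vec e b ∈ S) : tl n (spin φ k l) ≤ finrank F S :=
  (tl_le _).trans (finrank_mono (spin_le h k hl))

/-! ### duality -/

theorem bt_par (k v : ℕ) : bt (par k v) = ∑ j ∈ Finset.range k, bt (v.testBit j) := by
  induction k with
  | zero => rfl
  | succ k ih =>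
    have : par (k + 1) v = xor (v.testBit k) (par k v) := rfl
    rw [this, bt_xor, ih, Finset.sum_range_succ, add_comm]
theorem dot_vec (a b : ℕ) : vec e a ⬝ᵥ vec e b = bt (dt n a b) := by
  rw [dt, frc_eq, bt_par, Finset.sum_range, ← e.sum_comp, dotProduct]
  refine Finset.sum_congr rfl fun i _ => ?_
  show _ = bt ((a &&& b).testBit _)
  rw [Nat.testBit_and, bt_and]; rfl

/-- the orthogonal complement -/
def perp (S : Submodule F (I → F)) : Submodule F (I → F) where
  carrier := {u | ∀ v ∈ S, u ⬝ᵥ v = 0}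
  add_mem' ha hb v h := by rw [add_dotProduct, ha v h, hb v h, add_zero]
  zero_mem' v _ := zero_dotProduct v
  smul_mem' c u hu v h := by rw [smul_dotProduct, hu v h, smul_zero]

theorem finrank_perp (e : I ≃ Fin n) (S : Submodule F (I → F)) :
    finrank F S + finrank F (perp S) = n := by
  have h := Subspace.finrank_add_finrank_dualAnnihilator_eq S
  rw [finrank_eq e] at h
  rw [← h]
  congr 1
  let d : (I → F) ≃ₗ[F] Module.Dual F (I → F) := (Pi.basisFun F I).toDualEquiv
  have hd : ∀ u v, d u v = u ⬝ᵥ v := fun u v => by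
    have : (d u : (I → F) →ₗ[F] F) = (dotProductBilin F F) u := by
      refine LinearMap.pi_ext' fun i => LinearMap.ext_ring ?_
      simp only [LinearMap.coe_comp, LinearMap.coe_single, Function.comp_apply]
      have := (Pi.basisFun F I).toDual_eq_repr u i
      simp only [Pi.basisFun_apply, Pi.basisFun_repr] at this
      simpa [d] using this
    rw [this]; rfl
  rw [← d.finrank_map_eq]
  suffices q : map (d : (I → F) →ₗ[F] Module.Dual F (I → F)) (perp S) = S.dualAnnihilator by rw [q]
  ext g
  obtain ⟨u, rfl⟩ := d.surjective g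
  rw [mem_dualAnnihilator, mem_map_equiv, LinearEquiv.symm_apply_apply]
  simp only [hd]; rfl

theorem mem_perp_sp {B : List ℕ} {a : ℕ} (h : B.all (fun b => !dt n a b) = true) :
    vec e a ∈ perp (sp e B) := by
  have : sp e B ≤ LinearMap.ker ((dotProductBilin F F) (vec e a)) := (sp_le e).2 fun b hb => by
    have := List.all_eq_true.1 h b hb
    rw [Bool.not_eq_true'] at this
    show vec e a ⬝ᵥ vec e b = 0
    rw [dot_vec, this]; rfl
  exact fun v hv => this hv

/-- the transpose acts on the complement of an invariant subspace -/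
theorem perp_tr {M : List ℕ} (hM : M.length = n) {S : Submodule F (I → F)}
    (h : ∀ m, vec e m ∈ S → vec e (app M m) ∈ S) (m : ℕ) (hm : vec e m ∈ perp S) :
    vec e (app (tr n M) m) ∈ perp S := fun v hv => by
  obtain ⟨w, rfl⟩ := vec_surj e v
  rw [← hm _ (h w hv), vec_app hM, vec_app (by simp [tr]), sum_dotProduct, dotProduct_sum]
  simp only [smul_dotProduct, dotProduct_smul, dotProduct, smul_eq_mul, Finset.mul_sum, Pi.smul_apply]
  rw [Finset.sum_comm]
  refine Finset.sum_congr rfl fun i _ => Finset.sum_congr rfl fun j _ => ?_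
  have : vec e ((tr n M).getD (e j) 0) i = vec e (M.getD (e i) 0) j := by
    rw [vec, vec, ← rowF_bit M]; simp [tr]
  rw [this]; ring

theorem Cl.perp {Ms : List (List ℕ)} (hM : ∀ M ∈ Ms, M.length = n) {S : Submodule F (I → F)}
    (h : Cl e (Ms.map app) S) : Cl e ((Ms.map (tr n)).map app) (perp S) := fun f hf => by
  obtain ⟨_, hN, rfl⟩ := List.mem_map.1 hf
  obtain ⟨M, hM', rfl⟩ := List.mem_map.1 hN
  exact perp_tr (hM M hM') (h _ (List.mem_map.2 ⟨M, hM', rfl⟩))

/-- Norton's dichotomy -/
theorem norton0 (e : I ≃ Fin n) {S W : Submodule F (I → F)} (hW : W ≤ S) {t : (I → F) →ₗ[F] (I → F)}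
    (ht : ∀ v ∈ S, t v ∈ S) (hr : n ≤ finrank F ↥(LinearMap.range t ⊔ W) + 1) {v : I → F}
    (hv : t v ∈ W) : v ∈ S ∨ S ≤ LinearMap.range t ⊔ W := by
  by_contra hn
  rw [not_or] at hn
  obtain ⟨h1, h2⟩ := hn
  set R := LinearMap.range t ⊔ W
  let τ := W.mkQ ∘ₗ t
  have e1 : LinearMap.range τ = R.map W.mkQ := by
    rw [LinearMap.range_comp, Submodule.map_sup, mkQ_map_self, sup_bot_eq]
  have q : ∀ U : Submodule F (I → F), W ≤ U → finrank F (U.map W.mkQ) + finrank F W = finrank F U :=
    fun U hU => by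
      have := LinearMap.finrank_range_add_finrank_ker (W.mkQ ∘ₗ U.subtype)
      rw [LinearMap.range_comp, range_subtype, LinearMap.ker_comp, ker_mkQ,
        (comapSubtypeEquivOfLe hU).finrank_eq] at this
      exact this
  have k1 := LinearMap.finrank_range_add_finrank_ker τ
  rw [finrank_eq e, e1] at k1
  have k2 := q R le_sup_right
  have k3 := LinearMap.finrank_range_add_finrank_ker (τ ∘ₗ S.subtype)
  have k4 : LinearMap.range (τ ∘ₗ S.subtype) ≤ (R ⊓ S).map W.mkQ := by
    rintro _ ⟨x, rfl⟩
    exact ⟨t x, ⟨mem_sup_left ⟨_, rfl⟩, ht _ x.2⟩, rfl⟩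
  have k5 := finrank_mono k4
  have k6 := q (R ⊓ S) (le_inf le_sup_right hW)
  have k7 : finrank F ↥(R ⊓ S) < finrank F S :=
    finrank_lt_finrank_of_lt (lt_of_le_of_ne inf_le_right fun z => h2 (inf_eq_right.1 z))
  have k8 : finrank F (LinearMap.ker (τ ∘ₗ S.subtype)) = finrank F ↥(LinearMap.ker τ ⊓ S) := by
    rw [LinearMap.ker_comp, ← Submodule.finrank_map_subtype_eq, map_comap_subtype, inf_comm]
  have k9 : finrank F ↥(LinearMap.ker τ ⊓ S) < finrank F (LinearMap.ker τ) :=
    finrank_lt_finrank_of_lt (lt_of_le_of_ne inf_le_left fun z => h1 (inf_eq_left.1 z (by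
      simpa [τ] using hv)))
  omega

/-- the data of Norton's test: `W` a list, `T` the matrix of `t`, `v` with `t v ∈ W`,
`a` orthogonal to `W` and the image of `t` -/
noncomputable def nortonChk (n : ℕ) (W T : List ℕ) (v a : ℕ) : Bool :=
  Nat.ble n (rk n (T ++ W) + 1) && (Nat.beq (red (ech W) (app T v)) 0 &&
    (T ++ W).all fun b => !dt n a b)

/-- Norton's test: `S ≥ W` closed under the matrices `Ms` and under `T`: `S` contains the spin of
`v` and `W`, or the complement of `S` contains the dual spin of `a` -/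
theorem norton (e : I ≃ Fin n) {S : Submodule F (I → F)} {W T : List ℕ} {Ms : List (List ℕ)} {v a : ℕ}
    (hW : sp e W ≤ S) (hT : T.length = n) (hM : ∀ M ∈ Ms, M.length = n)
    (hS : Cl e (Ms.map app) S) (ht : ∀ m, vec e m ∈ S → vec e (app T m) ∈ S)
    (hc : nortonChk n W T v a = true) (k : ℕ) :
    tl n (spin (Ms.map app) k (W ++ [v])) ≤ finrank F S ∨
      finrank F S + tl n (spin ((Ms.map (tr n)).map app) k [a]) ≤ n := by
  simp only [nortonChk, Bool.and_eq_true, Nat.ble_eq] at hc
  obtain ⟨c1, c2, c3⟩ := hc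
  have r := rep_app (e := e) hT
  have e1 : LinearMap.range (lin e T) = sp e T := by
    refine le_antisymm ?_ ((sp_le e).2 fun b hb => ?_)
    · rintro _ ⟨x, rfl⟩
      rw [lin, LinearMap.sum_apply]
      refine sum_mem fun i _ => smul_mem _ _ (mem_sp e ?_)
      rw [List.getD_eq_getElem _ _ (by simp [hT])]; exact List.getElem_mem _
    · obtain ⟨j, hj, rfl⟩ := List.getElem_of_mem hb
      refine ⟨Pi.single (e.symm ⟨j, hT ▸ hj⟩) 1, ?_⟩
      rw [lin, LinearMap.sum_apply, Finset.sum_eq_single (e.symm ⟨j, hT ▸ hj⟩)]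
      · simp [List.getElem?_eq_getElem hj]
      · intro i _ hi; simp [Pi.single_apply, hi]
      · simp
  have := norton0 e hW (t := lin e T) (fun x hx => by
      obtain ⟨m, rfl⟩ := vec_surj e x
      rw [r]; exact ht m hx)
    (by rw [e1, ← sp_append]; exact c1.trans (Nat.succ_le_succ (rk_le e _))) (v := vec e v)
    (by rw [r, ← sp_ech]; exact mem_of_red e (Nat.eq_of_beq_eq_true c2))
  rcases this with h | h
  · refine .inl (spin_dim hS k fun b hb => ?_)
    rcases List.mem_append.1 hb with hb | hb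
    · exact hW (mem_sp e hb)
    · rw [List.mem_singleton.1 hb]; exact h
  · rw [e1, ← sp_append] at h
    have := spin_dim (hS.perp hM) k (l := [a]) fun b hb => by
      rw [List.mem_singleton.1 hb]; exact fun x hx => mem_perp_sp c3 x (h hx)
    have := finrank_perp e S
    omega

/-- polynomials in the matrices: a sum of products of generators, by index -/
noncomputable def wapp (Ms : List (List ℕ)) (w : List ℕ) (v : ℕ) : ℕ :=
  List.rec (motive := fun _ => ℕ) v (fun i _ r => frc r (app (Ms.getD i []))) w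
noncomputable def papp (Ms : List (List ℕ)) (p : List (List ℕ)) (v : ℕ) : ℕ :=
  List.rec (motive := fun _ => ℕ) 0 (fun w _ r => Nat.xor (wapp Ms w v) r) p

theorem Cl.wapp {Ms : List (List ℕ)} {S : Submodule F (I → F)} (h : Cl e (Ms.map app) S)
    (w : List ℕ) (m : ℕ) (hm : vec e m ∈ S) : vec e (wapp Ms w m) ∈ S := by
  induction w with
  | nil => exact hm
  | cons i t ih =>
    have : BK.wapp Ms (i :: t) m = app (Ms.getD i []) (BK.wapp Ms t m) := frc_eq _ _
    rw [this]
    by_cases hi : i < Ms.length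
    · rw [List.getD_eq_getElem _ _ hi]
      exact h _ (List.mem_map.2 ⟨_, List.getElem_mem hi, rfl⟩) _ ih
    · rw [List.getD_eq_default _ _ (by omega)]
      exact (vec_zero e) ▸ zero_mem S
theorem Cl.papp {Ms : List (List ℕ)} {S : Submodule F (I → F)} (h : Cl e (Ms.map app) S)
    (p : List (List ℕ)) (m : ℕ) (hm : vec e m ∈ S) : vec e (papp Ms p m) ∈ S := by
  induction p with
  | nil => exact (vec_zero e) ▸ zero_mem S
  | cons w t ih =>
    have : BK.papp Ms (w :: t) m = BK.wapp Ms w m ^^^ BK.papp Ms t m := rfl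
    rw [this, vec_xor]; exact add_mem (h.wapp w m hm) ih

theorem rep_wapp {Ms : List (List ℕ)} (hM : ∀ M ∈ Ms, M.length = n) (w : List ℕ) :
    ∃ f, Rep e f (wapp Ms w) := by
  induction w with
  | nil => exact ⟨1, Rep.id⟩
  | cons i t ih =>
    obtain ⟨f, hf⟩ := ih
    by_cases hi : i < Ms.length
    · refine ⟨_, ((rep_app (hM _ (List.getElem_mem hi))).mul hf).congr fun m => ?_⟩
      rw [← List.getD_eq_getElem _ [] hi]; exact (frc_eq _ _).symm
    · refine ⟨0, Rep.zero.congr fun m => ?_⟩
      have : wapp Ms (i :: t) m = app (Ms.getD i []) (wapp Ms t m) := frc_eq _ _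
      rw [this, List.getD_eq_default _ _ (by omega)]; rfl
theorem rep_papp {Ms : List (List ℕ)} (hM : ∀ M ∈ Ms, M.length = n) (p : List (List ℕ)) :
    ∃ f, Rep e f (papp Ms p) := by
  induction p with
  | nil => exact ⟨0, Rep.zero⟩
  | cons w t ih =>
    obtain ⟨f, hf⟩ := ih
    obtain ⟨g, hg⟩ := rep_wapp (e := e) hM w
    exact ⟨_, hg.add hf⟩

/-- Norton's test with `t` the polynomial `p` in the matrices `Ms`; `T` is its matrix -/
theorem nortonP (e : I ≃ Fin n) {S : Submodule F (I → F)} {W T : List ℕ} {Ms : List (List ℕ)}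
    {p : List (List ℕ)} {v a : ℕ} (hW : sp e W ≤ S) (hM : ∀ M ∈ Ms, M.length = n)
    (hS : Cl e (Ms.map app) S) (hT : mat n (papp Ms p) = T)
    (hc : nortonChk n W T v a = true) (k : ℕ) :
    tl n (spin (Ms.map app) k (W ++ [v])) ≤ finrank F S ∨
      finrank F S + tl n (spin ((Ms.map (tr n)).map app) k [a]) ≤ n := by
  obtain ⟨f, hf⟩ := rep_papp (e := e) hM p
  refine norton e hW (by rw [← hT]; simp [mat]) hM hS (fun m hm => ?_) hc k
  rw [← hf.toMat hT, hf]; exact hS.papp p m hm

/-- the two-way form: `S = W` or `S = ⊤` -/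
theorem nortonTop (e : I ≃ Fin n) {S : Submodule F (I → F)} {W T : List ℕ} {Ms : List (List ℕ)}
    {p : List (List ℕ)} {v a : ℕ} (hW : sp e W ≤ S) (hM : ∀ M ∈ Ms, M.length = n)
    (hS : Cl e (Ms.map app) S) (hT : mat n (papp Ms p) = T)
    (hc : nortonChk n W T v a = true) {k : ℕ} (h1 : n ≤ tl n (spin (Ms.map app) k (W ++ [v])))
    (h2 : n ≤ tl n (spin ((Ms.map (tr n)).map app) k [a]) + rk n W) : S = sp e W ∨ S = ⊤ := by
  rcases nortonP e hW hM hS hT hc k with h | h
  · exact .inr (eq_top_of_finrank_eq (le_antisymm (finrank_le S) (by rw [finrank_eq e]; omega)))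
  · have := rk_le e W
    exact .inl (eq_of_le_of_finrank_le hW (by omega)).symm

end

end H22.BK
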