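/- Packed matrices: all columns in one number; a map is applied to all columns at once. -/
import Cfsg.Agent.H22.E7K0

set_option autoImplicit false

namespace H22.BK

/-- pack `f 0, …, f (k-1)` in slots of `w` bits -/
def pk (w : ℕ) : ℕ → (ℕ → ℕ) → ℕ
  | 0, _ => 0
  | k + 1, f => 2 ^ w * pk w k (fun j => f (j + 1)) + f 0

theorem pk_bit {w : ℕ} (k : ℕ) {f : ℕ → ℕ} (h : ∀ j, f j < 2 ^ w) (j : ℕ) {i : ℕ} (hi : i < w) :
    (pk w k f).testBit (w * j + i) = (decide (j < k) && (f j).testBit i) := by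
  induction k generalizing f j with
  | zero => simp [pk]
  | succ k ih =>
    rw [pk, Nat.testBit_two_pow_mul_add _ (h 0)]
    cases j with
    | zero => simp [hi]
    | succ j =>
      rw [if_neg (by rw [Nat.mul_succ]; omega), show w * (j + 1) + i - w = w * j + i by
        rw [Nat.mul_succ]; omega, ih (fun j => h (j + 1))]
      simp

theorem pk_ext {w : ℕ} (hw : 0 < w) {a b : ℕ}
    (h : ∀ j, ∀ i < w, a.testBit (w * j + i) = b.testBit (w * j + i)) : a = b :=
  Nat.eq_of_testBit_eq fun t => by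
    have := h (t / w) (t % w) (Nat.mod_lt _ hw)
    rwa [Nat.div_add_mod] at this

theorem pk_xor {w : ℕ} (hw : 0 < w) (k : ℕ) {f g : ℕ → ℕ} (hf : ∀ j, f j < 2 ^ w) (hg : ∀ j, g j < 2 ^ w) :
    pk w k f ^^^ pk w k g = pk w k fun j => f j ^^^ g j := pk_ext hw fun j i hi => by
  rw [Nat.testBit_xor, pk_bit k hf j hi, pk_bit k hg j hi,
    pk_bit k (fun j => Nat.xor_lt_two_pow (hf j) (hg j)) j hi, Nat.testBit_xor]
  cases decide (j < k) <;> simp

theorem pk_mul (w k : ℕ) (f : ℕ → ℕ) (b : ℕ) : pk w k f * b = pk w k fun j => f j * b := by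
  induction k generalizing f with
  | zero => simp [pk]
  | succ k ih => rw [pk, pk, ← ih]; ring

theorem pk_zero (w k : ℕ) : pk w k (fun _ => 0) = 0 := by
  induction k with
  | zero => rfl
  | succ k ih => rw [pk, ih]; simp

theorem pk_row {w : ℕ} (hw : 0 < w) (k : ℕ) {f : ℕ → ℕ} (hf : ∀ j, f j < 2 ^ w) {s : ℕ} (hs : s < w) :
    (pk w k f >>> s) &&& pk w k (fun _ => 1) = pk w k fun j => (f j >>> s) &&& 1 :=
  pk_ext hw fun j i hi => by
    have h1 : 1 < 2 ^ w := Nat.one_lt_two_pow (by omega)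
    rw [Nat.testBit_and, pk_bit k (fun _ => h1) j hi,
      pk_bit k (fun j => Nat.and_le_right.trans_lt h1) j hi, Nat.testBit_and, Nat.testBit_shiftRight,
      Nat.testBit_shiftRight]
    by_cases h : i = 0
    · subst h
      rw [add_zero, add_zero, add_comm, pk_bit k hf j hs]
      cases decide (j < k) <;> simp
    · have : Nat.testBit 1 i = false := Nat.testBit_lt_two_pow (Nat.one_lt_two_pow h)
      simp [this]

def cxP (μ P i b a : ℕ) : ℕ := Nat.xor (Nat.mul (Nat.land (Nat.shiftRight P i) μ) b) a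

theorem cx_lt {w v i b a : ℕ} (hb : b < 2 ^ w) (ha : a < 2 ^ w) : cx v i b a < 2 ^ w := by
  rw [cx_eq]
  refine Nat.xor_lt_two_pow ?_ ha
  split_ifs
  exacts [hb, Nat.two_pow_pos w]

theorem cxP_pk {w : ℕ} (k : ℕ) {f g : ℕ → ℕ} (hf : ∀ j, f j < 2 ^ w) (hg : ∀ j, g j < 2 ^ w)
    {i b : ℕ} (hi : i < w) (hb : b < 2 ^ w) :
    cxP (pk w k fun _ => 1) (pk w k f) i b (pk w k g) = pk w k fun j => cx (f j) i b (g j) := by
  show ((pk w k f >>> i) &&& _) * b ^^^ _ = _
  rw [pk_row (by omega) k hf hi, pk_mul, pk_xor (by omega) k _ hg]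
  · rfl
  · intro j
    have : (f j >>> i) &&& 1 ≤ 1 := Nat.and_le_right
    exact (Nat.mul_le_mul_right b this).trans_lt (by omega)

/-- `Φ` applies `φ` to all slots of a packed number -/
def PR (w k : ℕ) (φ Φ : ℕ → ℕ) : Prop :=
  (∀ v, v < 2 ^ w → φ v < 2 ^ w) ∧
    ∀ f : ℕ → ℕ, (∀ j, f j < 2 ^ w) → Φ (pk w k f) = pk w k fun j => φ (f j)

variable {w k : ℕ}
theorem PR.id : PR w k (fun v => v) fun v => v := ⟨fun _ h => h, fun _ _ => rfl⟩
theorem PR.zero : PR w k (fun _ => 0) fun _ => 0 :=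
  ⟨fun _ _ => Nat.two_pow_pos w, fun _ _ => (pk_zero w k).symm⟩
theorem PR.comp {φ Φ ψ Ψ : ℕ → ℕ} (h : PR w k φ Φ) (g : PR w k ψ Ψ) :
    PR w k (fun v => φ (ψ v)) fun v => Φ (Ψ v) :=
  ⟨fun v q => h.1 _ (g.1 v q), fun f q => by
    beta_reduce; rw [g.2 f q, h.2 _ fun j => g.1 _ (q j)]⟩
theorem PR.xor (hw : 0 < w) {φ Φ ψ Ψ : ℕ → ℕ} (h : PR w k φ Φ) (g : PR w k ψ Ψ) :
    PR w k (fun v => φ v ^^^ ψ v) fun v => Φ v ^^^ Ψ v :=
  ⟨fun v q => Nat.xor_lt_two_pow (h.1 v q) (g.1 v q), fun f q => by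
    beta_reduce; rw [g.2 f q, h.2 f q, pk_xor hw k (fun j => h.1 _ (q j)) fun j => g.1 _ (q j)]⟩
theorem PR.congr {φ Φ ψ Ψ : ℕ → ℕ} (h : PR w k φ Φ) (a : ∀ v, φ v = ψ v) (b : ∀ v, Φ v = Ψ v) :
    PR w k ψ Ψ := by rwa [← funext a, ← funext b]

noncomputable def spaP (μ : ℕ) (T : List (ℕ × ℕ)) (v : ℕ) : ℕ :=
  List.rec (motive := fun _ => ℕ) 0 (fun p _ r => cxP μ v p.1 p.2 r) T
noncomputable def appFP (μ : ℕ) (M : List ℕ) (v : ℕ) : ℕ → ℕ :=
  List.rec (motive := fun _ => ℕ → ℕ) (fun _ => 0) (fun c _ r i => cxP μ v i c (r (Nat.succ i))) M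
noncomputable def appP (μ : ℕ) (M : List ℕ) (v : ℕ) : ℕ := appFP μ M v 0

theorem pr_spa {μ : ℕ} (hμ : μ = pk w k fun _ => 1) {T : List (ℕ × ℕ)}
    (h : ∀ p ∈ T, p.1 < w ∧ p.2 < 2 ^ w) : PR w k (spa T) (spaP μ T) := by
  subst hμ
  induction T with
  | nil => exact PR.zero
  | cons p t ih =>
    have ih := ih fun q hq => h q (List.mem_cons_of_mem _ hq)
    have hp := h p List.mem_cons_self
    refine ⟨fun v q => cx_lt hp.2 (ih.1 v q), fun f q => ?_⟩
    show cxP _ _ p.1 p.2 (spaP _ t _) = _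
    rw [ih.2 f q, cxP_pk k q (fun j => ih.1 _ (q j)) hp.1 hp.2]; rfl

theorem pr_appF {μ : ℕ} (hμ : μ = pk w k fun _ => 1) {M : List ℕ} (h : ∀ c ∈ M, c < 2 ^ w) (i : ℕ)
    (hl : i + M.length ≤ w) : PR w k (fun v => appF M v i) fun v => appFP μ M v i := by
  subst hμ
  induction M generalizing i with
  | nil => exact PR.zero
  | cons c t ih =>
    rw [List.length_cons] at hl
    have ih := ih (fun q hq => h q (List.mem_cons_of_mem _ hq)) (i + 1) (by omega)
    have hp := h c List.mem_cons_self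
    refine ⟨fun v q => cx_lt hp (ih.1 v q), fun f q => ?_⟩
    show cxP _ _ i c (appFP _ t _ (i + 1)) = _
    have := ih.2 f q
    simp only at this
    rw [this, cxP_pk k q (fun j => ih.1 _ (q j)) (by omega) hp]; rfl

/-- a list of `n` columns below `2 ^ n` -/
def okM (n : ℕ) (M : List ℕ) : Bool := Nat.beq M.length n && M.all fun c => Nat.blt c (2 ^ n)
theorem okM_iff {n : ℕ} {M : List ℕ} : okM n M = true ↔ M.length = n ∧ ∀ c ∈ M, c < 2 ^ n := by
  simp [okM, Nat.beq_eq]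

theorem pr_app {μ : ℕ} (hμ : μ = pk w k fun _ => 1) {M : List ℕ} (h : okM w M = true) :
    PR w k (app M) (appP μ M) :=
  pr_appF hμ (okM_iff.1 h).2 0 (by rw [(okM_iff.1 h).1]; omega)

noncomputable def wappP (μ : ℕ) (Ms : List (List ℕ)) (l : List ℕ) (v : ℕ) : ℕ :=
  List.rec (motive := fun _ => ℕ) v (fun i _ r => frc r (appP μ (Ms.getD i []))) l
noncomputable def pappP (μ : ℕ) (Ms : List (List ℕ)) (p : List (List ℕ)) (v : ℕ) : ℕ :=
  List.rec (motive := fun _ => ℕ) 0 (fun l _ r => Nat.xor (wappP μ Ms l v) r) p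

theorem pr_wapp {μ : ℕ} (hμ : μ = pk w k fun _ => 1) {Ms : List (List ℕ)}
    (h : Ms.all (okM w) = true) (l : List ℕ) : PR w k (wapp Ms l) (wappP μ Ms l) := by
  induction l with
  | nil => exact PR.id
  | cons i t ih =>
    have : PR w k (app (Ms.getD i [])) (appP μ (Ms.getD i [])) := by
      by_cases hi : i < Ms.length
      · rw [List.getD_eq_getElem _ _ hi]
        exact pr_app hμ (List.all_eq_true.1 h _ (List.getElem_mem hi))
      · rw [List.getD_eq_default _ _ (by omega)]; exact PR.zero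
    exact (this.comp ih).congr (fun _ => (frc_eq _ _).symm) fun _ => (frc_eq _ _).symm
theorem pr_papp (hw : 0 < w) {μ : ℕ} (hμ : μ = pk w k fun _ => 1) {Ms : List (List ℕ)}
    (h : Ms.all (okM w) = true) (p : List (List ℕ)) : PR w k (papp Ms p) (pappP μ Ms p) := by
  induction p with
  | nil => exact PR.zero
  | cons l t ih => exact (pr_wapp hμ h l).xor hw ih

/-- iterate -/
noncomputable def itr (φ : ℕ → ℕ) (m v : ℕ) : ℕ :=
  Nat.rec (motive := fun _ => ℕ) v (fun _ r => frc r φ) m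
theorem PR.itr {φ Φ : ℕ → ℕ} (h : PR w k φ Φ) (m : ℕ) : PR w k (itr φ m) (itr Φ m) := by
  induction m with
  | zero => exact PR.id
  | succ m ih => exact (h.comp ih).congr (fun _ => (frc_eq _ _).symm) fun _ => (frc_eq _ _).symm
theorem Rep.itr {I : Type} [Fintype I] [DecidableEq I] {n : ℕ} {e : I ≃ Fin n}
    {f : (I → F) →ₗ[F] (I → F)} {φ : ℕ → ℕ} (h : Rep e f φ) (m : ℕ) : Rep e (f ^ m) (itr φ m) := by
  induction m with
  | zero => exact Rep.id
  | succ m ih => rw [pow_succ']; exact (h.mul ih).congr fun _ => (frc_eq _ _).symm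

/-- unpack `k` slots -/
noncomputable def unp (w k : ℕ) : ℕ → List ℕ :=
  Nat.rec (motive := fun _ => ℕ → List ℕ) (fun _ => [])
    (fun _ r P => frc P fun P => Nat.mod P (Nat.pow 2 w) :: r (Nat.shiftRight P w)) k

theorem unp_pk (k : ℕ) {f : ℕ → ℕ} (h : ∀ j, f j < 2 ^ w) : unp w k (pk w k f) = (List.range k).map f := by
  induction k generalizing f with
  | zero => rfl
  | succ k ih =>
    have : unp w (k + 1) (pk w (k + 1) f) = pk w (k + 1) f % 2 ^ w :: unp w k (pk w (k + 1) f >>> w) :=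
      frc_eq (pk w (k + 1) f) fun P => P % 2 ^ w :: unp w k (P >>> w)
    rw [this, pk, Nat.mul_add_mod, Nat.mod_eq_of_lt (h 0), Nat.shiftRight_eq_div_pow,
      Nat.mul_add_div (Nat.two_pow_pos w), Nat.div_eq_of_lt (h 0), add_zero, ih fun j => h (j + 1),
      List.range_succ_eq_map, List.map_cons, List.map_map]
    rfl

/-- the packed identity matrix -/
def idP (n : ℕ) : ℕ := pk n n fun j => 2 ^ j % 2 ^ n

/-- the matrix of a map from the packed computation -/
theorem PR.mat {n : ℕ} {φ Φ : ℕ → ℕ} (h : PR n n φ Φ) : mat n φ = unp n n (Φ (idP n)) := by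
  have q : ∀ j, 2 ^ j % 2 ^ n < 2 ^ n := fun j => Nat.mod_lt _ (Nat.two_pow_pos n)
  rw [idP, h.2 _ q, unp_pk n fun j => h.1 _ (q j), BK.mat]
  refine List.map_congr_left fun j hj => ?_
  rw [Nat.mod_eq_of_lt (Nat.pow_lt_pow_right (by omega) (List.mem_range.1 hj))]

theorem PR.okM {n : ℕ} {φ Φ : ℕ → ℕ} (h : PR n n φ Φ) : okM n (BK.mat n φ) = true := by
  rw [okM_iff]
  refine ⟨by simp [BK.mat], fun c hc => ?_⟩
  obtain ⟨j, hj, rfl⟩ := List.mem_map.1 hc
  exact h.1 _ (Nat.pow_lt_pow_right (by omega) (List.mem_range.1 hj))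

/-- a whole list of vectors at once -/
def pkL (w : ℕ) (l : List ℕ) : ℕ := pk w l.length fun j => l.getD j 0
theorem PR.map {l : List ℕ} {φ Φ : ℕ → ℕ} (h : PR w l.length φ Φ)
    (hl : l.all (fun c => Nat.blt c (2 ^ w)) = true) : l.map φ = unp w l.length (Φ (pkL w l)) := by
  have q : ∀ j, l.getD j 0 < 2 ^ w := fun j => by
    by_cases hj : j < l.length
    · rw [List.getD_eq_getElem _ _ hj]
      simpa using List.all_eq_true.1 hl _ (List.getElem_mem hj)
    · rw [List.getD_eq_default _ _ (by omega)]; exact Nat.two_pow_pos w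
  rw [pkL, h.2 _ q, unp_pk _ fun j => h.1 _ (q j)]
  refine List.ext_getElem (by simp) fun j h1 h2 => ?_
  simp at h1
  simp [List.getElem?_eq_getElem h1]

end H22.BK
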