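/- E7(2) on 133-bit vectors: words. -/
import Cfsg.Agent.H22.E7K1
import Cfsg.Agent.H22.E7KP
import Cfsg.Agent.H9.E7W
import Cfsg.Agent.H3.E7MSQ

set_option autoImplicit false

namespace H22.E7K
open Cfsg.Lie Module H36.E7M
open H22.BK hiding F

/-- the product of the `x_r(1)` -/
noncomputable def wd (l : List ℕ) : G := (l.map x).prod
/-- its action on numbers -/
noncomputable def wa (l : List ℕ) (v : ℕ) : ℕ :=
  List.rec (motive := fun _ => ℕ) v (fun r _ a => frc a (xr r)) l

theorem wd_nil : wd [] = 1 := rfl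
theorem wd_cons (r : ℕ) (l : List ℕ) : wd (r :: l) = x r * wd l := List.prod_cons
theorem wd_one (r : ℕ) : wd [r] = x r := by simp [wd]
theorem wd_app (a b : List ℕ) : wd (a ++ b) = wd a * wd b := by simp [wd]
theorem x_inv (r : ℕ) : (x r)⁻¹ = x r := by
  have h := H3.E7M.jobSQ
  unfold JobSQ at h
  exact inv_eq_of_mul_eq_one_right (h.1 r)
theorem wd_rev (a : List ℕ) : wd a.reverse = (wd a)⁻¹ := by
  induction a with
  | nil => simp [wd]
  | cons r t ih =>
    rw [List.reverse_cons, wd_app, ih, wd_one, wd_cons, mul_inv_rev,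
      x_inv]
theorem wa_cons (r : ℕ) (l : List ℕ) (v : ℕ) : wa (r :: l) v = xr r (wa l v) := frc_eq _ _

theorem rep_wd (l : List ℕ) : Rep e133 (ρ (wd l)) (wa l) := by
  induction l with
  | nil => rw [wd_nil, map_one]; exact Rep.id
  | cons r t ih => rw [wd_cons, map_mul]; exact ((rep_x r).mul ih).congr fun m => (wa_cons r t m).symm

theorem wk : H9.E7T.WK e133 wd wa 7 0 where
  nil := wd_nil
  app := wd_app
  rev := wd_rev
  z := wd_one 125
  rep := rep_wd
  one r _ := wd_one r
  hc _ := rfl
  hd _ := (Nat.zero_add _).symm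

theorem ev : H45.E7U.Ev e133 wd wa := wk.toEv

/-! ### packed: all columns at once -/

noncomputable def xrP (μ r v : ℕ) : ℕ := Nat.xor v (spaP μ (xtab.getD r []) v)
noncomputable def waP (μ : ℕ) (l : List ℕ) (v : ℕ) : ℕ :=
  List.rec (motive := fun _ => ℕ) v (fun r _ a => frc a (xrP μ r)) l

theorem pr_xr {k μ : ℕ} (hμ : μ = pk 133 k fun _ => 1) (r : ℕ) : PR 133 k (xr r) (xrP μ r) :=
  PR.id.xor (by omega) (pr_spa hμ (tab_lt r))
theorem pr_wa {k μ : ℕ} (hμ : μ = pk 133 k fun _ => 1) (l : List ℕ) : PR 133 k (wa l) (waP μ l) := by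
  induction l with
  | nil => exact PR.id
  | cons r t ih =>
    exact ((pr_xr hμ r).comp ih).congr (fun _ => (frc_eq _ _).symm) fun _ => (frc_eq _ _).symm

/-- the slot mask -/
def mu (n : ℕ) : ℕ := pk n n fun _ => 1

/-- the matrix of a word, computed fast -/
noncomputable def matW (l : List ℕ) : List ℕ :=
  frc (mu 133) fun μ => frc (idP 133) fun P => unp 133 133 (waP μ l P)
theorem mat_wa (l : List ℕ) : mat 133 (wa l) = matW l := by
  rw [matW, frc_eq, frc_eq]; exact (pr_wa rfl l).mat
theorem mat_wa_of {l M : List ℕ} (h : matW l = M) : mat 133 (wa l) = M := (mat_wa l).trans h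
theorem mats_wa (L : List (List ℕ)) : L.map (fun l => mat 133 (wa l)) = L.map matW :=
  List.map_congr_left fun l _ => mat_wa l
theorem rep_matW {l M : List ℕ} (h : matW l = M) : Rep e133 (ρ (wd l)) (app M) :=
  (rep_wd l).toMat (mat_wa_of h)

/-- the matrix of a polynomial in matrices, computed fast -/
noncomputable def matP (n : ℕ) (Ms p : List (List ℕ)) : List ℕ :=
  frc (mu n) fun μ => frc (idP n) fun P => unp n n (pappP μ Ms p P)
theorem mat_papp {n : ℕ} (hn : 0 < n) {Ms : List (List ℕ)} (h : Ms.all (okM n) = true)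
    (p : List (List ℕ)) : mat n (papp Ms p) = matP n Ms p := by
  rw [matP, frc_eq, frc_eq]; exact (pr_papp hn rfl h p).mat

/-- the matrix of a power, computed fast -/
noncomputable def matI (n : ℕ) (M : List ℕ) (m : ℕ) : List ℕ :=
  frc (mu n) fun μ => frc (idP n) fun P => unp n n (itr (appP μ M) m P)
theorem mat_itr {n : ℕ} {M : List ℕ} (h : okM n M = true) (m : ℕ) :
    mat n (itr (app M) m) = matI n M m := by
  rw [matI, frc_eq, frc_eq]; exact ((pr_app rfl h).itr m).mat

theorem ρ_inj {g h : G} (q : ρ g = ρ h) : g = h := by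
  refine Subtype.ext (Units.ext (Matrix.toLin'.injective (LinearMap.ext fun v => ?_)))
  rw [Matrix.toLin'_apply, Matrix.toLin'_apply, ← ρ_apply, ← ρ_apply, q]

/-- equal matrices, equal elements -/
theorem wd_eq {a b : List ℕ} (h : matW a = matW b) : wd a = wd b :=
  ρ_inj ((rep_wd a).ext (rep_wd b) (by rw [mat_wa, mat_wa, h]))

/-- the order of an element given by its matrix -/
theorem pow_eq_one {g : G} {M : List ℕ} (h : Rep e133 (ρ g) (app M)) {m : ℕ}
    (q : (okM 133 M && decide (matI 133 M m = bas 133)) = true) : g ^ m = 1 := by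
  rw [Bool.and_eq_true, decide_eq_true_eq] at q
  refine ρ_inj ?_
  rw [map_pow, map_one]
  exact (h.itr m).ext Rep.id (by rw [mat_itr q.1, q.2]; rfl)

theorem fixS_eq (g : G) : fixS {g} = LinearMap.ker (ρ g - 1) := by
  ext v; simp [mem_fixS, sub_eq_zero]

/-- the fixed space of an element given by its matrix -/
theorem fix_le {g : G} {M : List ℕ} (h : Rep e133 (ρ g) (app M)) (hM : M.length = 133) {d : ℕ}
    (q : Nat.ble 133 (rk 133 (List.zipWith Nat.xor M (bas 133)) + d) = true) :
    finrank F (fixS {g}) ≤ d := by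
  have h1 := LinearMap.finrank_range_add_finrank_ker (ρ g - 1)
  have h2 : rk 133 (List.zipWith Nat.xor M (bas 133)) ≤ finrank F (LinearMap.range (ρ g - 1)) :=
    rk_le_of e133 fun b hb => by
      obtain ⟨j, hj, rfl⟩ := List.getElem_of_mem hb
      have hj' : j < 133 := by simp [bas] at hj; omega
      refine ⟨vc (2 ^ j), ?_⟩
      rw [h.sub_one, vec_xor, List.getElem_zipWith]
      show _ = vec e133 (_ ^^^ _)
      rw [vec_xor, ← rep_app hM]
      have := vec_pow e133 (e133.symm ⟨j, hj'⟩)
      rw [Equiv.apply_symm_apply] at this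
      refine congrArg₂ (· + ·) ?_ ?_
      · rw [this, lin, LinearMap.sum_apply, Finset.sum_eq_single (e133.symm ⟨j, hj'⟩)]
        · simp [List.getElem?_eq_getElem (hM ▸ hj')]
        · intro i _ hi; simp [hi]
        · simp
      · simp [bas]
  rw [finrank_eq e133] at h1
  rw [fixS_eq]
  have := Nat.le_of_ble_eq_true q
  omega

example : (matW [1, 5, 77, 100, 3, 125, 0, 64, 63, 62, 12, 90, 44, 45, 110, 20, 33, 99, 17, 120]).length
  = 133 := by decide +kernel

end H22.E7K
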