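/- KP tower (S4202): the lines of a Jordan group. -/
import Cfsg.Agent.H2.KpSpec
import Cfsg.Agent.H5.LnJor

set_option autoImplicit false
set_option linter.unusedSectionVars false

namespace H22.KpG
open Equiv MulAction H2.Ln H2.Kp

variable {α : Type} [Fintype α] [DecidableEq α] {M : Subgroup (Perm α)} {T : Finset α}

def Fam (M : Subgroup (Perm α)) (T : Finset α) (u v : α) (K : Subgroup (Perm α)) : Prop :=
  K ≤ fx M (insert u (insert v T)) ∧ K ≠ ⊥ ∧ Tr K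

open Classical in
noncomputable def Gam (M : Subgroup (Perm α)) (T : Finset α) (u v : α) : Finset α :=
  Finset.univ.filter fun z => ∃ K, Fam M T u v K ∧ z ∈ sp K

theorem mem_Gam {u v z : α} : z ∈ Gam M T u v ↔ ∃ K, Fam M T u v K ∧ z ∈ sp K := by simp [Gam]

theorem sp_sub {S : Finset α} {K : Subgroup (Perm α)} (h : K ≤ fx M S) : sp K ⊆ Sᶜ := fun z hz => by
  obtain ⟨x, hx, e⟩ := mem_sp.1 hz
  exact Finset.mem_compl.2 fun c => e ((mem_fx.1 (h hx)).2 z c)

theorem Gam_sub (u v : α) : Gam M T u v ⊆ (insert u (insert v T))ᶜ := fun z hz => by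
  obtain ⟨K, h, hz⟩ := mem_Gam.1 hz
  exact sp_sub h.1 hz

theorem sp_mono {K L : Subgroup (Perm α)} (h : K ≤ L) : sp K ⊆ sp L := fun z hz => by
  obtain ⟨x, hx, e⟩ := mem_sp.1 hz
  exact mem_sp.2 ⟨x, h hx, e⟩

theorem mem_sp_sup {K L : Subgroup (Perm α)} {z : α} (h : z ∈ sp (K ⊔ L)) : z ∈ sp K ∨ z ∈ sp L := by
  by_contra c
  simp only [mem_sp, not_or, not_exists, not_and, not_not] at c
  obtain ⟨x, hx, e⟩ := mem_sp.1 h
  exact e ((sup_le (fun y hy => c.1 y hy) fun y hy => c.2 y hy : K ⊔ L ≤ stabilizer (Perm α) z) hx)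

theorem tr_sup {K L : Subgroup (Perm α)} (hK : Tr K) (hL : Tr L) {c : α} (c1 : c ∈ sp K)
    (c2 : c ∈ sp L) : Tr (K ⊔ L) := by
  have k : ∀ z ∈ sp (K ⊔ L), ∃ x ∈ K ⊔ L, x c = z := fun z hz => by
    rcases mem_sp_sup hz with h | h
    · obtain ⟨x, hx, e⟩ := hK c c1 z h; exact ⟨x, Subgroup.mem_sup_left hx, e⟩
    · obtain ⟨x, hx, e⟩ := hL c c2 z h; exact ⟨x, Subgroup.mem_sup_right hx, e⟩
  intro a ha b hb
  obtain ⟨x, hx, rfl⟩ := k a ha
  obtain ⟨y, hy, rfl⟩ := k b hb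
  exact ⟨y * x⁻¹, mul_mem hy (inv_mem hx), by simp⟩

theorem fam_conj {u v : α} {K : Subgroup (Perm α)} (h : Fam M T u v K) {x : Perm α} (hx : x ∈ fx M T) :
    ∃ L, Fam M T (x u) (x v) L ∧ ∀ z ∈ sp K, x z ∈ sp L := by
  obtain ⟨x1, x2⟩ := mem_fx.1 hx
  have m : ∀ z, x z ∈ sp (K.map (MulAut.conj x).toMonoidHom) ↔ z ∈ sp K := fun z => by
    simp only [mem_sp, Subgroup.mem_map]
    constructor
    · rintro ⟨_, ⟨y, hy, rfl⟩, e⟩
      exact ⟨y, hy, fun c => e (by simp [c])⟩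
    · rintro ⟨y, hy, e⟩
      exact ⟨_, ⟨y, hy, rfl⟩, by simpa using e⟩
  refine ⟨K.map (MulAut.conj x).toMonoidHom, ⟨?_, ?_, fun a ha b hb => ?_⟩, fun z => (m z).2⟩
  · rintro _ ⟨y, hy, rfl⟩
    obtain ⟨y1, y2⟩ := mem_fx.1 (h.1 hy)
    refine mem_fx.2 ⟨mul_mem (mul_mem x1 y1) (inv_mem x1), fun a ha => ?_⟩
    simp only [Finset.mem_insert] at ha y2
    have : ∃ c, (c = u ∨ c = v ∨ c ∈ T) ∧ a = x c := by
      rcases ha with rfl | rfl | ha
      exacts [⟨u, .inl rfl, rfl⟩, ⟨v, .inr (.inl rfl), rfl⟩, ⟨a, .inr (.inr ha), (x2 a ha).symm⟩]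
    obtain ⟨c, hc, rfl⟩ := this
    simp [y2 c hc]
  · rw [Ne, Subgroup.map_eq_bot_iff_of_injective _ (MulAut.conj x).injective]; exact h.2.1
  · obtain ⟨a, rfl⟩ := x.surjective a
    obtain ⟨b, rfl⟩ := x.surjective b
    obtain ⟨y, hy, rfl⟩ := h.2.2 a ((m a).1 ha) b ((m b).1 hb)
    exact ⟨_, ⟨y, hy, rfl⟩, by simp⟩

theorem gam_conj {u v z : α} (h : z ∈ Gam M T u v) {x : Perm α} (hx : x ∈ fx M T) :
    x z ∈ Gam M T (x u) (x v) := by
  obtain ⟨K, h1, h2⟩ := mem_Gam.1 h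
  obtain ⟨L, h3, h4⟩ := fam_conj h1 hx
  exact mem_Gam.2 ⟨L, h3, h4 z h2⟩

theorem gam_conj' {u v z : α} {x : Perm α} (hx : x ∈ fx M T) (h : x z ∈ Gam M T (x u) (x v)) :
    z ∈ Gam M T u v := by simpa using gam_conj h (inv_mem hx)

theorem gam_card {u v : α} {x : Perm α} (hx : x ∈ fx M T) :
    (Gam M T (x u) (x v)).card = (Gam M T u v).card :=
  (Finset.card_bij (fun z _ => x z) (fun _ h => gam_conj h hx) (fun _ _ _ _ e => x.injective e)
    fun z hz => ⟨x⁻¹ z, gam_conj' hx (by simpa using hz), by simp⟩).symm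

theorem agree {S : Finset α} (h : IsMultiplyPretransitive M α S.card) (σ : Perm α) :
    ∃ x ∈ M, ∀ z ∈ S, x z = σ z := by
  let f : Fin S.card ↪ α := S.equivFin.symm.toEmbedding.trans (Function.Embedding.subtype _)
  obtain ⟨x, hx⟩ := h.exists_smul_eq f (f.trans σ.toEmbedding)
  refine ⟨x, x.2, fun z hz => ?_⟩
  have := DFunLike.congr_fun hx (S.equivFin ⟨z, hz⟩)
  have h2 : x • z = σ z := by simpa [f] using this
  exact h2

theorem card_ins {u v : α} (hu : u ∉ T) (hv : v ∉ T) (h : u ≠ v) :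
    (insert u (insert v T)).card = T.card + 2 := by
  rw [Finset.card_insert_of_notMem (by simp [h, hu]), Finset.card_insert_of_notMem hv]

theorem two_tr (h : IsMultiplyPretransitive M α (T.card + 2)) {a b u v : α} (ha : a ∉ T) (hb : b ∉ T)
    (ab : a ≠ b) (hu : u ∉ T) (hv : v ∉ T) (uv : u ≠ v) : ∃ x ∈ fx M T, x a = u ∧ x b = v := by
  obtain ⟨x, hx, e⟩ := agree (S := insert a (insert b T)) (by rwa [card_ins ha hb ab])
    (swap (swap a u b) v * swap a u)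
  refine ⟨x, mem_fx.2 ⟨hx, fun z hz => ?_⟩, ?_, ?_⟩
  · have n : ∀ c, c ∉ T → z ≠ c := fun c hc q => hc (q ▸ hz)
    rw [e z (by simp [hz]), Perm.mul_apply, swap_apply_of_ne_of_ne (n a ha) (n u hu),
      swap_apply_of_ne_of_ne (n _ ?_) (n v hv)]
    rw [swap_apply_def]; split_ifs <;> assumption
  · rw [e a (by simp), Perm.mul_apply, swap_apply_left, swap_apply_of_ne_of_ne ?_ uv]
    intro q
    exact ab ((swap a u).injective (by rw [swap_apply_left]; exact q))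
  · rw [e b (by simp), Perm.mul_apply, swap_apply_left]

theorem jobGeoA : JL → GeoA := by
  intro hJ α _ _ M hp hA T a b ha hb ab hn h2 h3 hK
  have lt : ∀ u v K, u ∉ T → v ∉ T → u ≠ v → Fam M T u v K →
      (sp K).card < Fintype.card α - (T.card + 2) := fun u v K hu hv uv h => by
    have e := card_ins hu hv uv
    have := hJ α M (insert u (insert v T)) (by omega) (by rwa [e]) (by rwa [e]) K h.1 h.2.2
    rwa [e] at this
  have mx : ∀ u v, u ∉ T → v ∉ T → u ≠ v → ∃ K, Fam M T u v K ∧ sp K = Gam M T u v :=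
    fun u v hu hv uv => by
      obtain ⟨x, hx, rfl, rfl⟩ := two_tr h2 ha hb ab hu hv uv
      obtain ⟨K0, k0⟩ := hK
      obtain ⟨K1, k1, -⟩ := fam_conj (show Fam M T a b K0 from k0) hx
      obtain ⟨K, k, km⟩ := Set.exists_max_image {K | Fam M T (x a) (x b) K} (fun K => (sp K).card)
        (Set.toFinite _) ⟨K1, k1⟩
      refine ⟨K, k, Finset.Subset.antisymm (fun z hz => mem_Gam.2 ⟨K, k, hz⟩) fun z hz => ?_⟩
      obtain ⟨L, l, hz⟩ := mem_Gam.1 hz
      have j : ∀ K, Fam M T (x a) (x b) K → Fintype.card α ≤ 2 * (sp K).card := fun K h =>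
        (H5.LnJor.jobJor α M hp hA (T.card + 2) (by omega) h3 K (h.1.trans inf_le_left) h.2.1 h.2.2
          (lt _ _ K hu hv uv h)).2.1
      have c1 := Finset.card_union_add_card_inter (sp K) (sp L)
      have c2 := Finset.card_le_card (Finset.union_subset (sp_sub k.1) (sp_sub l.1))
      rw [Finset.card_compl, card_ins hu hv uv] at c2
      have := j K k
      have := j L l
      obtain ⟨c, hc⟩ := Finset.card_pos.1 (show 0 < (sp K ∩ sp L).card by omega)
      rw [Finset.mem_inter] at hc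
      have f : Fam M T (x a) (x b) (K ⊔ L) := ⟨sup_le k.1 l.1,
        fun q => k.2.1 (le_bot_iff.1 (q ▸ le_sup_left)), tr_sup k.2.2 l.2.2 hc.1 hc.2⟩
      rw [Finset.eq_of_subset_of_card_le (sp_mono le_sup_left) (km _ f)]
      exact sp_mono le_sup_right hz
  have eq : ∀ u v, u ∉ T → v ∉ T → u ≠ v → (Gam M T u v).card = (Gam M T a b).card :=
    fun u v hu hv uv => by
      obtain ⟨x, hx, rfl, rfl⟩ := two_tr h2 ha hb ab hu hv uv
      exact gam_card hx
  have sub : ∀ u v, Gam M T u v ⊆ Tᶜ := fun u v z hz => by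
    have := Gam_sub u v hz
    simp only [Finset.mem_compl, Finset.mem_insert, not_or] at this ⊢
    exact this.2.2
  have into : ∀ (K : Subgroup (Perm α)) u v, K ≤ fx M T → K ≠ ⊥ → Tr K → u ∉ sp K → v ∉ sp K →
      sp K ⊆ Gam M T u v := fun K u v h1 h2 h3 hu hv z hz => by
    refine mem_Gam.2 ⟨K, ⟨fun x hx => mem_fx.2 ⟨(mem_fx.1 (h1 hx)).1, fun c hc => ?_⟩, h2, h3⟩, hz⟩
    simp only [mem_sp, not_exists, not_and, not_not] at hu hv
    simp only [Finset.mem_insert] at hc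
    rcases hc with rfl | rfl | hc
    exacts [hu x hx, hv x hx, (mem_fx.1 (h1 hx)).2 c hc]
  refine ⟨Tᶜ.card - (Gam M T a b).card, fun u v => Tᶜ \ Gam M T u v, ⟨?_, fun x hx z hz => ?_,
    fun u hu v hv uv => ⟨?_, ?_, Finset.sdiff_subset, ?_⟩, fun u hu v hv uv c hc d hd cd => ?_,
    fun x hx u hu v hv uv z hz => ?_⟩, fun K h1 h2 h3 u hu v hv _ => ?_⟩
  · obtain ⟨K, k, e⟩ := mx a b ha hb ab
    have := lt a b K ha hb ab k
    rw [Finset.card_compl, ← e]; omega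
  · exact (mem_fx.1 hx).2 z (by simpa using hz)
  · exact Finset.mem_sdiff.2 ⟨hu, fun c => by simpa using Gam_sub u v c⟩
  · exact Finset.mem_sdiff.2 ⟨hv, fun c => by simpa using Gam_sub u v c⟩
  · rw [Finset.card_sdiff_of_subset (sub u v), eq u v (by simpa using hu) (by simpa using hv) uv]
  · rw [Finset.mem_compl] at hu hv
    rw [Finset.mem_sdiff, Finset.mem_compl] at hc hd
    obtain ⟨K, k, e⟩ := mx u v hu hv uv
    have s := into K c d (fun x hx => mem_fx.2 ⟨(mem_fx.1 (k.1 hx)).1, fun z hz =>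
      (mem_fx.1 (k.1 hx)).2 z (by simp [hz])⟩) k.2.1 k.2.2 (e ▸ hc.2) (e ▸ hd.2)
    rw [e] at s
    rw [Finset.eq_of_subset_of_card_le s (by rw [eq c d hc.1 hd.1 cd, eq u v hu hv uv])]
  · rw [Finset.mem_sdiff, Finset.mem_compl] at hz ⊢
    refine ⟨fun c => hz.1 ?_, fun c => hz.2 (gam_conj' hx c)⟩
    rwa [x.injective ((mem_fx.1 hx).2 _ c)] at c
  · rw [Finset.mem_sdiff] at hu hv
    exact Finset.disjoint_of_subset_right (into K u v h1 h2 h3 hu.2 hv.2) Finset.sdiff_disjoint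

end H22.KpG
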