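import Cfsg.Agent.H53.SimXASpec

/-! # S3694, chapter XA: job CP3 (a finite check in `GU₃(2)`) -/

set_option autoImplicit false

namespace H22.SimCP3

open Cfsg Matrix H0.Sim H53.XA

def ad4 (a b : Fin 4) : Fin 4 := Fin.ofNat 4 (a.1 ^^^ b.1)
def mu4 (a b : Fin 4) : Fin 4 := Fin.ofNat 4 (2625168384 >>> (2 * (4 * a.1 + b.1)))
def cj4 (a : Fin 4) : Fin 4 := mu4 a a

abbrev M4 : Type := Fin 3 → Fin 3 → Fin 4

def g3 {α : Type} (x y z : α) (i : Fin 3) : α := if i.1 = 0 then x else if i.1 = 1 then y else z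
def mk (a b c d e f g h i : Fin 4) : M4 := g3 (g3 a d g) (g3 b e h) (g3 c f i)
def mm (A B : M4) : M4 := fun i j =>
  ad4 (ad4 (mu4 (A i 0) (B 0 j)) (mu4 (A i 1) (B 1 j))) (mu4 (A i 2) (B 2 j))
def adj (A : M4) : M4 := fun i j => cj4 (A j i)
def ip (a b c d e f : Fin 4) : Fin 4 :=
  ad4 (ad4 (mu4 (cj4 a) d) (mu4 (cj4 b) e)) (mu4 (cj4 c) f)
def dt (A : M4) : Fin 4 :=
  ad4 (ad4 (ad4 (ad4 (ad4 (mu4 (mu4 (A 0 0) (A 1 1)) (A 2 2)) (mu4 (mu4 (A 0 0) (A 1 2)) (A 2 1)))
    (mu4 (mu4 (A 0 1) (A 1 0)) (A 2 2))) (mu4 (mu4 (A 0 1) (A 1 2)) (A 2 0)))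
    (mu4 (mu4 (A 0 2) (A 1 0)) (A 2 1))) (mu4 (mu4 (A 0 2) (A 1 1)) (A 2 0))
def o4 : M4 := mk 1 0 0 0 1 0 0 0 1
def H1 : M4 := mk 1 1 1 1 2 3 1 3 2
def H2 : M4 := mk 0 0 1 0 1 0 1 0 0
def cm (A H : M4) : Prop :=
  ∀ i j, mm A (mm (mm H A) (adj H)) i j = mm (mm (mm H A) (adj H)) A i j

instance (A H : M4) : Decidable (cm A H) := by unfold cm; infer_instance

set_option synthInstance.maxSize 4000 in
set_option synthInstance.maxHeartbeats 400000 in
set_option maxRecDepth 20000 in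
theorem key : ∀ a b c : Fin 4, ip a b c a b c = 1 → ∀ d e f : Fin 4, ip d e f d e f = 1 →
    ip a b c d e f = 0 → ∀ g h i : Fin 4, ip g h i g h i = 1 → ip a b c g h i = 0 →
    ip d e f g h i = 0 → cm (mk a b c d e f g h i) H1 → cm (mk a b c d e f g h i) H2 →
    b = 0 ∧ c = 0 ∧ d = 0 ∧ f = 0 ∧ g = 0 ∧ h = 0 ∧ e = a ∧ i = a := by
  decide +kernel

theorem mk_eq (A : M4) : mk (A 0 0) (A 1 0) (A 2 0) (A 0 1) (A 1 1) (A 2 1) (A 0 2) (A 1 2) (A 2 2) = A := by
  funext i j
  fin_cases i <;> fin_cases j <;> rfl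

variable {F : Type} [Field F] {w : F}

def io (w : F) (a : Fin 4) : F := if a.1 = 0 then 0 else if a.1 = 1 then 1 else if a.1 = 2 then w else w + 1

def MM (w : F) (A : M4) : Mt 3 F := Matrix.of fun i j => io w (A i j)

section
variable (h2 : (2 : F) = 0) (hw : w * w = w + 1)
include h2 hw

omit hw in
theorem io_ad (a b : Fin 4) : io w (ad4 a b) = io w a + io w b := by
  fin_cases a <;> fin_cases b <;> simp [io, ad4, Fin.ofNat] <;> grind

theorem io_mu (a b : Fin 4) : io w (mu4 a b) = io w a * io w b := by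
  fin_cases a <;> fin_cases b <;> simp [io, mu4, Fin.ofNat, Nat.shiftRight_eq_div_pow] <;> grind

theorem io_inj : Function.Injective (io w) := by
  intro a b
  fin_cases a <;> fin_cases b <;> simp [io] <;> grind

theorem MM_mm (A B : M4) : MM w (mm A B) = MM w A * MM w B := by
  ext i j
  simp [MM, mm, Matrix.mul_apply, Fin.sum_univ_three, io_ad h2, io_mu h2 hw]

theorem MM_adj (A : M4) : MM w (adj A) = ad 2 (MM w A) := by
  ext i j
  simp [MM, adj, cj4, io_mu h2 hw, pow_two]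

theorem MM_inj {A B : M4} (h : MM w A = MM w B) : A = B := by
  funext i j
  exact io_inj h2 hw (congrFun (congrFun h i) j)

theorem MM_det (A : M4) : (MM w A).det = io w (dt A) := by
  rw [Matrix.det_fin_three]
  simp only [MM, dt, io_ad h2, io_mu h2 hw, Matrix.of_apply]
  grind

end

theorem MM_one : MM w o4 = 1 := by
  ext i j
  fin_cases i <;> fin_cases j <;> simp [MM, o4, mk, g3, io]

theorem job : CP3 := by
  intro F _ _ d hF hd _ hc
  have hF' : Fintype.card F = 2 ^ 2 := by simpa [Fq] using hF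
  have h2 : (2 : F) = 0 := by
    have h : ((Fintype.card F : ℕ) : F) = 0 := FiniteField.cast_card_eq_zero F
    rw [hF'] at h
    exact pow_eq_zero_iff two_ne_zero |>.1 (by exact_mod_cast h)
  obtain ⟨w, hw⟩ : ∃ w : F, w * w = w + 1 := by
    classical
    obtain ⟨w, h⟩ : ∃ w : F, w ∉ ({0, 1} : Finset F) := by
      by_contra h
      push Not at h
      have h3 := Finset.card_le_card (show (Finset.univ : Finset F) ⊆ {0, 1} from fun x _ => h x)
      have h4 := Finset.card_le_two (a := (0 : F)) (b := 1)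
      rw [Finset.card_univ, hF'] at h3
      omega
    simp only [Finset.mem_insert, Finset.mem_singleton, not_or] at h
    have h4 : w ^ 4 = w := by
      have := FiniteField.pow_card w
      rwa [hF'] at this
    refine ⟨w, ?_⟩
    have h5 : w * (w - 1) * (w * w + w + 1) = 0 := by linear_combination h4
    have h6 := (mul_eq_zero.1 h5).resolve_left (mul_ne_zero h.1 (sub_ne_zero.2 h.2))
    linear_combination h6 - (w + 1) * h2
  have hs : Function.Surjective (io w) :=
    ((Fintype.bijective_iff_injective_and_card _).2 ⟨io_inj h2 hw, by simp [hF']⟩).2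
  choose A hA using fun i j => hs ((d : Mt 3 F) i j)
  have hd' : MM w A = d := by ext i j; exact hA i j
  have hu : mm (adj A) A = o4 := MM_inj h2 hw (by
    rw [MM_mm h2 hw, MM_adj h2 hw, hd', MM_one]; exact (mem_gu hF').1 hd)
  have hcm : ∀ H : M4, mm H (adj H) = o4 → mm (adj H) H = o4 → dt H = 1 → cm A H := by
    intro H k1 k2 k3
    let h : GL (Fin 3) F := ⟨MM w H, MM w (adj H), by rw [← MM_mm h2 hw, k1, MM_one],
      by rw [← MM_mm h2 hw, k2, MM_one]⟩
    have hh : h ∈ Sg 3 F true 2 := ⟨(mem_gu hF').2 (by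
      show ad 2 (MM w H) * MM w H = 1
      rw [← MM_adj h2 hw, ← MM_mm h2 hw, k2, MM_one]), by
      apply Units.ext
      show (MM w H).det = 1
      rw [MM_det h2 hw, k3]; rfl⟩
    have e := congrArg Units.val (hc h hh).eq
    have e' : mm A (mm (mm H A) (adj H)) = mm (mm (mm H A) (adj H)) A := MM_inj h2 hw (by
      simp only [MM_mm h2 hw, hd']; exact e)
    exact fun i j => congrFun (congrFun e' i) j
  have u := fun i j => congrFun (congrFun hu i) j
  obtain ⟨k1, k2, k3, k4, k5, k6, k7, k8⟩ := key (A 0 0) (A 1 0) (A 2 0) (u 0 0) (A 0 1) (A 1 1) (A 2 1)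
    (u 1 1) (u 0 1) (A 0 2) (A 1 2) (A 2 2) (u 2 2) (u 0 2) (u 1 2)
    (by rw [mk_eq]; exact hcm H1 (by decide +kernel) (by decide +kernel) (by decide +kernel))
    (by rw [mk_eq]; exact hcm H2 (by decide +kernel) (by decide +kernel) (by decide +kernel))
  refine ⟨io w (A 0 0), ?_⟩
  rw [← hd']
  ext i j
  fin_cases i <;> fin_cases j <;> simp [MM, k1, k2, k3, k4, k5, k6, k7, k8, io]

end H22.SimCP3
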