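import Cfsg.Agent.H52.SimXSSpec

/-! # S3694, chapter XS: job Md (a matrix model of a simple subalgebra with scalar centre) -/

set_option autoImplicit false

namespace H22.SimMd

open Cfsg Matrix H0.Sim H52.XS

variable {n : ℕ} {F : Type} [Field F] [Fintype F] {R : Subalgebra F (Mt n F)}

theorem central {k : ℕ} {K : Type} [Field K] (m : Mt k K) (h : ∀ a, a * m = m * a) :
    ∃ c : K, Matrix.scalar (Fin k) c = m := by
  have : m ∈ Set.range (Matrix.scalar (Fin k) : K → Mt k K) :=
    Matrix.mem_range_scalar_of_commute_single fun i j _ => h _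
  exact this

theorem card_eq [IsSimpleRing R] (hc : ∀ m ∈ R, (∀ c ∈ R, m * c = c * m) → Sc m) {k : ℕ}
    (hk : 1 ≤ k) {K : Type} [Field K] [Fintype K] (φ : R ≃+* Mt k K) :
    Fintype.card K = Fintype.card F := by
  have : Nonempty (Fin k) := ⟨⟨0, hk⟩⟩
  apply le_antisymm
  · have h1 : ∀ a : K, ∃ c : F, ((φ.symm (Matrix.scalar (Fin k) a) : R) : Mt n F) =
        Matrix.scalar (Fin n) c := fun a => hc _ (φ.symm _).2 fun c hc' => by
      have e : φ.symm (Matrix.scalar (Fin k) a) * ⟨c, hc'⟩ =
          ⟨c, hc'⟩ * φ.symm (Matrix.scalar (Fin k) a) := by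
        apply φ.injective
        rw [map_mul, map_mul, φ.apply_symm_apply]
        exact (Matrix.scalar_commute a (fun _ => Commute.all _ _) _).eq
      exact congrArg Subtype.val e
    choose g hg using h1
    refine Fintype.card_le_of_injective g fun a b e => ?_
    have e1 : φ.symm (Matrix.scalar (Fin k) a) = φ.symm (Matrix.scalar (Fin k) b) :=
      Subtype.ext (by rw [hg, hg, e])
    exact Matrix.scalar_inj.1 (φ.symm.injective e1)
  · have h1 : ∀ c : F, ∃ a : K, Matrix.scalar (Fin k) a = φ (algebraMap F R c) := fun c =>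
      central _ fun m => by
        obtain ⟨r, rfl⟩ := φ.surjective m
        rw [← map_mul, ← map_mul, Algebra.commutes]
    choose g hg using h1
    refine Fintype.card_le_of_injective g fun a b e => ?_
    have e1 : φ (algebraMap F R a) = φ (algebraMap F R b) := by rw [← hg, ← hg, e]
    exact (algebraMap F R).injective (φ.injective e1)

omit [Fintype F] in
theorem two_le (hc : ∀ m ∈ R, (∀ c ∈ R, m * c = c * m) → Sc m) (hn : ∃ m ∈ R, ¬ Sc m) {k : ℕ}
    (hk : 1 ≤ k) {K : Type} [Field K] (φ : R ≃+* Mt k K) : 2 ≤ k := by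
  by_contra h
  obtain rfl : k = 1 := by omega
  obtain ⟨m, hm, hs⟩ := hn
  refine hs (hc m hm fun c hc' => ?_)
  have e : (⟨m, hm⟩ : R) * ⟨c, hc'⟩ = ⟨c, hc'⟩ * ⟨m, hm⟩ := by
    apply φ.injective
    rw [map_mul, map_mul]
    ext i j
    simp [Matrix.mul_apply, Subsingleton.elim i 0, Subsingleton.elim j 0, mul_comm]
  exact congrArg Subtype.val e

theorem job : JobMd := by
  intro sl su hd n F _ _ u q hp R hR hc hu hn
  cases u with
  | false =>
    obtain ⟨K, _, _, k, hk, ⟨φ⟩⟩ := sl R
    exact ⟨k, two_le hc hn hk φ, K, _, _, φ, card_eq hc hk φ, fun h => absurd h (by simp)⟩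
  | true =>
    have hq : Fintype.card F = q ^ 2 := by simpa using hp.card
    obtain ⟨a1, a2, a3, a4, a5, ⟨c, a6⟩, -⟩ := hd n F q hq
    obtain ⟨K, _, _, k, q', φ, hk, hK, hφ⟩ := su R (fun a => ⟨ad q a, hu rfl _ a.2⟩)
      (fun a b => Subtype.ext (a1 _ _)) (fun a b => Subtype.ext (a2 _ _))
      (fun a => Subtype.ext (a3 _))
      ⟨algebraMap F R c, fun a => Algebra.commutes c a, fun e => a6 (by
        apply (algebraMap F R).injective
        rw [← e]
        apply Subtype.ext
        show algebraMap F (Mt n F) (c ^ q) = ad q (algebraMap F (Mt n F) c)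
        rw [Algebra.algebraMap_eq_smul_one, Algebra.algebraMap_eq_smul_one, a5, a4])⟩
    have hcard := card_eq hc hk φ
    obtain rfl : q' = q := Nat.pow_left_injective two_ne_zero (hK.symm.trans (hcard.trans hq))
    refine ⟨k, two_le hc hn hk φ, K, _, _, φ, hcard, fun _ a b e => ?_⟩
    have e1 : b = ⟨ad q' a, hu rfl _ a.2⟩ := Subtype.ext e
    rw [e1]
    exact hφ a

end H22.SimMd
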